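import Mathlib
import Cfsg.Prelude.Def_GeometricClasses
import Cfsg.Agent.GeoLib.Transvection

/-!
Basic facts for subgroups of GL and the geometric classes.
-/

set_option autoImplicit false

namespace CfsgLib.GeoPrime

open Matrix

variable {ι : Type} [Fintype ι] [DecidableEq ι] {F : Type*} [Field F]

theorem gl_inj (g : GL ι F) {u v : ι → F}
    (h : (g : Matrix ι ι F) *ᵥ u = (g : Matrix ι ι F) *ᵥ v) : u = v :=
  mulVec_injective_of_isUnit g.isUnit h

theorem gl_inv_mulVec (g : GL ι F) (v : ι → F) :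
    ((g⁻¹ : GL ι F) : Matrix ι ι F) *ᵥ ((g : Matrix ι ι F) *ᵥ v) = v := by
  rw [mulVec_mulVec, ← Units.val_mul, inv_mul_cancel, Units.val_one, one_mulVec]

theorem gl_mulVec_inv (g : GL ι F) (v : ι → F) :
    (g : Matrix ι ι F) *ᵥ (((g⁻¹ : GL ι F) : Matrix ι ι F) *ᵥ v) = v := by
  rw [mulVec_mulVec, ← Units.val_mul, mul_inv_cancel, Units.val_one, one_mulVec]

/-- A maximal subgroup is cut out by any overgroup not containing the whole group. -/
theorem eq_inf_of_maximal {G : Type*} [Group G] {K H M : Subgroup G}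
    (hH : Cfsg.Geo.IsMaximalIn K H) (hM : H ≤ M) (hK : ¬ K ≤ M) : H = M ⊓ K := by
  rcases hH.2 (M ⊓ K) (le_inf hM hH.1.le) inf_le_right with h | h
  · exact h.symm
  · exact absurd (h ▸ inf_le_left) hK

/-- The irreducibility of a subgroup, in terms of vectors. -/
theorem irreducible_iff (G : Subgroup (GL ι F)) :
    Cfsg.Geo.ActsIrreducibly (Cfsg.Geo.matrixSet G) ↔ ∀ W : Submodule F (ι → F),
      (∀ g ∈ G, ∀ v ∈ W, (g : Matrix ι ι F) *ᵥ v ∈ W) → W = ⊥ ∨ W = ⊤ := by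
  constructor
  · intro h W hW
    refine h W ?_
    rintro _ ⟨g, hg, rfl⟩
    exact Submodule.map_le_iff_le_comap.mpr fun v hv => by simpa using hW g hg v hv
  · intro h W hW
    refine h W fun g hg v hv => ?_
    have := Submodule.map_le_iff_le_comap.mp (hW _ ⟨g, hg, rfl⟩) hv
    simpa using this

/-- An invariant subspace gives a containment in a subspace stabiliser. -/
theorem le_subspaceStabilizer {G : Subgroup (GL ι F)} {W : Submodule F (ι → F)}
    (h : ∀ g ∈ G, ∀ v ∈ W, (g : Matrix ι ι F) *ᵥ v ∈ W) : G ≤ Cfsg.Geo.subspaceStabilizer W :=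
  fun g hg => (GeoTransvection.mem_subspaceStabilizer_iff W g).mpr fun v =>
    ⟨h g hg v, fun hv => by simpa [gl_inv_mulVec] using h g⁻¹ (G.inv_mem hg) _ hv⟩

theorem mem_similarityGroup {f : (ι → F) → (ι → F) → F} {g : GL ι F} :
    g ∈ Cfsg.Geo.similarityGroup f ↔ ∃ c : Fˣ, ∀ u v,
      f ((g : Matrix ι ι F) *ᵥ u) ((g : Matrix ι ι F) *ᵥ v) = (c : F) * f u v :=
  Iff.rfl

theorem mem_quadSimilarityGroup {Q : (ι → F) → F} {g : GL ι F} :
    g ∈ Cfsg.Geo.quadSimilarityGroup Q ↔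
      ∃ c : Fˣ, ∀ v, Q ((g : Matrix ι ι F) *ᵥ v) = (c : F) * Q v :=
  Iff.rfl

theorem mem_subalgebraNormalizer {K : Subalgebra F (Matrix ι ι F)} {g : GL ι F} :
    g ∈ Cfsg.Geo.subalgebraNormalizer K ↔ ∀ k : Matrix ι ι F,
      k ∈ K ↔ (g : Matrix ι ι F) * k * ((g⁻¹ : GL ι F) : Matrix ι ι F) ∈ K :=
  Iff.rfl

theorem mem_specialLinear {g : GL ι F} :
    g ∈ Cfsg.Geo.specialLinear ι F ↔ (g : Matrix ι ι F).det = 1 := by
  rw [Cfsg.Geo.specialLinear, MonoidHom.mem_ker, Units.ext_iff]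
  rfl

theorem scalar_matrix {g : GL ι F} (hg : g ∈ Cfsg.Geo.scalars ι F) :
    ∃ c : F, c ≠ 0 ∧ (g : Matrix ι ι F) = c • (1 : Matrix ι ι F) := by
  obtain ⟨c, hc⟩ := (Cfsg.Geo.mem_scalars_iff g).mp hg
  exact ⟨c, c.ne_zero, hc⟩

theorem scalar_comm {z : GL ι F} (hz : z ∈ Cfsg.Geo.scalars ι F) (g : GL ι F) : z * g = g * z := by
  obtain ⟨c, -, hc⟩ := scalar_matrix hz
  refine Units.ext ?_
  rw [Units.val_mul, Units.val_mul, hc, smul_mul_assoc, mul_smul_comm, one_mul, mul_one]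

/-- An element commuting with an absolutely irreducible group is a scalar. -/
theorem mem_scalars_of_commute [Nonempty ι] {P : Subgroup (GL ι F)}
    (hP : Cfsg.Geo.ActsAbsolutelyIrreducibly (Cfsg.Geo.matrixSet P)) {g : GL ι F}
    (h : ∀ x ∈ P, g * x = x * g) : g ∈ Cfsg.Geo.scalars ι F := by
  obtain ⟨c, hc⟩ := hP.2 (g : Matrix ι ι F) (by
    rintro _ ⟨x, hx, rfl⟩
    exact congrArg Units.val (h x hx))
  have hc0 : c ≠ 0 := by
    intro h0
    have := g.isUnit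
    rw [hc, h0, zero_smul] at this
    exact not_isUnit_zero this
  exact (Cfsg.Geo.mem_scalars_iff g).mpr ⟨Units.mk0 c hc0, hc⟩

/-- Transvections as elements of SL, with a prescribed value. -/
theorem transvection_sends {n : ℕ} (S : Submodule F (Fin n → F)) {w u : Fin n → F} (hw : w ∉ S) (hu : u ∈ S) :
    ∃ g ∈ Cfsg.Geo.specialLinear (Fin n) F, (g : Matrix (Fin n) (Fin n) F) *ᵥ w = w + u ∧
      ∀ v ∈ S, (g : Matrix (Fin n) (Fin n) F) *ᵥ v = v := by
  obtain ⟨φ, hφw, hφ⟩ := Submodule.exists_dual_map_eq_bot_of_notMem hw inferInstance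
  have hS : ∀ v ∈ S, φ v = 0 := fun v hv =>
    (Submodule.mem_bot F).mp (hφ ▸ Submodule.mem_map_of_mem hv)
  obtain ⟨g, hgS, hg⟩ := GeoTransvection.exists_transvection u ((φ w)⁻¹ • φ) (by simp [hS u hu])
  exact ⟨g, hgS, by rw [hg]; simp [inv_mul_cancel₀ hφw], fun v hv => by rw [hg]; simp [hS v hv]⟩

end CfsgLib.GeoPrime
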