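import Mathlib
import Cfsg.Agent.GeoPrime.Basic

/-!
The special linear group lies in no member of the geometric classes used here.
-/

set_option autoImplicit false

namespace CfsgLib.GeoPrime

open Matrix

variable {n : ℕ} {F : Type*} [Field F]

theorem sl_not_le_subspaceStabilizer {W : Submodule F (Fin n → F)} (h0 : W ≠ ⊥) (h1 : W ≠ ⊤) :
    ¬ Cfsg.Geo.specialLinear (Fin n) F ≤ Cfsg.Geo.subspaceStabilizer W := by
  intro hle
  obtain ⟨w, hw, hw0⟩ := W.ne_bot_iff.mp h0
  obtain ⟨u, hu⟩ : ∃ u, u ∉ W := by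
    by_contra h; push Not at h; exact h1 (eq_top_iff.mpr fun y _ => h y)
  have hwu : w ∉ Submodule.span F {u} := by
    rw [Submodule.mem_span_singleton]
    rintro ⟨c, rfl⟩
    have hc : c ≠ 0 := fun h => hw0 (by simp [h])
    exact hu (by simpa [smul_smul, inv_mul_cancel₀ hc] using W.smul_mem c⁻¹ hw)
  obtain ⟨g, hg, hgw, -⟩ := transvection_sends _ hwu (Submodule.mem_span_singleton_self u)
  have := ((GeoTransvection.mem_subspaceStabilizer_iff W g).mp (hle hg) w).mp hw
  rw [hgw] at this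
  exact hu (by simpa using W.sub_mem this hw)

theorem mem_decompositionStabilizer {t : ℕ} {D : Fin t → Submodule F (Fin n → F)} {g : GL (Fin n) F} :
    g ∈ Cfsg.Geo.decompositionStabilizer D ↔ ∃ σ : Equiv.Perm (Fin t),
      ∀ i, (D i).map (Matrix.toLin' (g : Matrix (Fin n) (Fin n) F)) = D (σ i) :=
  Iff.rfl

/-- Lines spanned by a basis. -/
def basisLines (b : Module.Basis (Fin n) F (Fin n → F)) : Fin n → Submodule F (Fin n → F) :=
  fun i => Submodule.span F {b i}

theorem isMDecomposition_basisLines (hn : 2 ≤ n) (b : Module.Basis (Fin n) F (Fin n → F)) :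
    Cfsg.Geo.IsMDecomposition 1 (basisLines b) := by
  refine ⟨hn, one_pos, fun i => finrank_span_singleton (b.ne_zero i), ?_, ?_⟩
  · exact (b.linearIndependent).iSupIndep_span_singleton
  · rw [eq_top_iff, ← b.span_eq, Submodule.span_le]
    rintro _ ⟨i, rfl⟩
    exact le_iSup (basisLines b) i (Submodule.mem_span_singleton_self _)

theorem sl_not_le_decompositionStabilizer (hn : 3 ≤ n) (b : Module.Basis (Fin n) F (Fin n → F)) :
    ¬ Cfsg.Geo.specialLinear (Fin n) F ≤ Cfsg.Geo.decompositionStabilizer (basisLines b) := by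
  intro hle
  let i0 : Fin n := ⟨0, by omega⟩
  let i1 : Fin n := ⟨1, by omega⟩
  have h01 : i0 ≠ i1 := by simp [i0, i1]
  have hnot : b i0 ∉ Submodule.span F {b i1} := by
    rw [Submodule.mem_span_singleton]
    rintro ⟨c, hc⟩
    have := congrArg (fun v => b.repr v i0) hc
    simp [h01.symm] at this
  obtain ⟨g, hg, hgw, -⟩ := transvection_sends _ hnot (Submodule.mem_span_singleton_self (b i1))
  obtain ⟨σ, hσ⟩ := mem_decompositionStabilizer.mp (hle hg)
  have hmem : b i0 + b i1 ∈ basisLines b (σ i0) := by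
    rw [← hσ i0, ← hgw]
    exact ⟨b i0, Submodule.mem_span_singleton_self _, by simp⟩
  obtain ⟨c, hc⟩ := Submodule.mem_span_singleton.mp hmem
  have e0 := congrArg (fun v => b.repr v i0) hc
  have e1 := congrArg (fun v => b.repr v i1) hc
  rcases eq_or_ne (σ i0) i0 with h | h
  · rw [h] at e1; simp [h01, h01.symm] at e1
  · simp [h, h.symm, h01, h01.symm] at e0

theorem sl_not_le_subalgebraNormalizer (hn : 3 ≤ n) {K : Subalgebra F (Matrix (Fin n) (Fin n) F)}
    (hinv : ∀ x ∈ K, x ≠ 0 → ∃ y ∈ K, x * y = 1) (hne : ∃ k ∈ K, ∀ c : F, k ≠ c • 1) :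
    ¬ Cfsg.Geo.specialLinear (Fin n) F ≤ Cfsg.Geo.subalgebraNormalizer K := by
  classical
  intro hle
  obtain ⟨k, hk, hks⟩ := hne
  have hunit : ∀ x ∈ K, ∀ v, v ≠ 0 → x *ᵥ v = 0 → x = 0 := by
    intro x hx v hv hxv
    by_contra hx0
    obtain ⟨y, -, hxy⟩ := hinv x hx hx0
    apply hv
    have : y * x = 1 := mul_eq_one_comm.mp hxy
    rw [← one_mulVec v, ← this, ← mulVec_mulVec, hxv, mulVec_zero]
  -- a vector moved off its line
  obtain ⟨v, hv0⟩ : ∃ v : Fin n → F, v ≠ 0 :=
    ⟨Pi.single ⟨0, by omega⟩ 1, fun h => by simpa using congrFun h ⟨0, by omega⟩⟩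
  set S := Submodule.span F ({v, k *ᵥ v} : Set (Fin n → F)) with hS
  have hSn : S ≠ ⊤ := by
    intro h
    have h1 := congrArg (fun W : Submodule F (Fin n → F) => Module.finrank F W) h
    simp only [finrank_top, Module.finrank_fin_fun] at h1
    have h2 := finrank_span_le_card (R := F) ({v, k *ᵥ v} : Set (Fin n → F))
    rw [← hS, h1] at h2
    have h3 : ({v, k *ᵥ v} : Set (Fin n → F)).toFinset.card ≤ 2 := by
      rw [Set.toFinset_insert, Set.toFinset_singleton]; exact Finset.card_le_two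
    omega
  obtain ⟨w, hw⟩ : ∃ w, w ∉ S := by
    by_contra h; push Not at h; exact hSn (eq_top_iff.mpr fun y _ => h y)
  obtain ⟨φ, hφw, hφ⟩ := Submodule.exists_dual_map_eq_bot_of_notMem hw inferInstance
  have hφS : ∀ x ∈ S, φ x = 0 := fun x hx =>
    (Submodule.mem_bot F).mp (hφ ▸ Submodule.mem_map_of_mem hx)
  have hvS : v ∈ S := Submodule.subset_span (Set.mem_insert v _)
  obtain ⟨g, hg, hgx⟩ := GeoTransvection.exists_transvection v φ (hφS v hvS)
  have hfix : ∀ x ∈ S, (g : Matrix (Fin n) (Fin n) F) *ᵥ x = x := fun x hx => by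
    rw [hgx, hφS x hx, zero_smul, add_zero]
  set k' := (g : Matrix (Fin n) (Fin n) F) * k * ((g⁻¹ : GL (Fin n) F) : Matrix (Fin n) (Fin n) F)
  have hk' : k' ∈ K := (mem_subalgebraNormalizer.mp (hle hg) k).mp hk
  have hgv : ((g⁻¹ : GL (Fin n) F) : Matrix (Fin n) (Fin n) F) *ᵥ v = v := by
    conv_lhs => rw [← hfix v (Submodule.subset_span (Set.mem_insert v _))]
    exact gl_inv_mulVec g v
  have heq : k' = k := sub_eq_zero.mp (hunit _ (K.sub_mem hk' hk) v hv0 (by
    rw [sub_mulVec, ← mulVec_mulVec, ← mulVec_mulVec, hgv,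
      hfix _ (Submodule.subset_span (Set.mem_insert_of_mem _ (Set.mem_singleton _))), sub_self]))
  -- `k` commutes with the transvection, so it fixes the line of `v`
  have hcomm : (g : Matrix (Fin n) (Fin n) F) * k = k * g := by
    conv_rhs => rw [← heq]
    simp [k', mul_assoc]
  have h1 := congrArg (fun M : Matrix (Fin n) (Fin n) F => M *ᵥ w) hcomm
  simp only [← mulVec_mulVec, hgx, mulVec_add, mulVec_smul] at h1
  have hline : k *ᵥ v ∈ Submodule.span F {v} :=
    Submodule.mem_span_singleton.mpr ⟨φ (k *ᵥ w) / φ w, by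
      rw [div_eq_inv_mul, mul_smul, add_left_cancel h1, smul_smul, inv_mul_cancel₀ hφw, one_smul]⟩
  obtain ⟨c, hc⟩ := Submodule.mem_span_singleton.mp hline
  exact hks c (sub_eq_zero.mp (hunit _ (K.sub_mem hk (K.smul_mem K.one_mem c)) v hv0 (by
    rw [sub_mulVec, smul_mulVec, one_mulVec, hc, sub_self])))

theorem mem_subfieldSubgroup {F₀ : Subfield F} {P g : GL (Fin n) F} :
    g ∈ Cfsg.Geo.subfieldSubgroup F₀ P ↔ ∃ (g₀ : GL (Fin n) F₀) (c : Fˣ),
      ((P⁻¹ * g * P : GL (Fin n) F) : Matrix (Fin n) (Fin n) F) =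
        (c : F) • (g₀ : Matrix (Fin n) (Fin n) F₀).map Subtype.val := by
  rw [Cfsg.Geo.subfieldSubgroup]
  constructor
  · rintro ⟨y, hy, rfl⟩
    obtain ⟨_, ⟨g₀, rfl⟩, z, hz, rfl⟩ := Subgroup.mem_sup_of_normal_right.mp hy
    obtain ⟨c, hc⟩ := (Cfsg.Geo.mem_scalars_iff z).mp hz
    refine ⟨g₀, c, ?_⟩
    simp only [MulEquiv.coe_toMonoidHom, MulAut.conj_apply]
    rw [show P⁻¹ * (P * (Matrix.GeneralLinearGroup.map (F₀.subtype : F₀ →+* F) g₀ * z) * P⁻¹) * P =
      Matrix.GeneralLinearGroup.map (F₀.subtype : F₀ →+* F) g₀ * z by group, Units.val_mul, hc,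
      mul_smul_comm, mul_one]
    rfl
  · rintro ⟨g₀, c, h⟩
    refine ⟨P⁻¹ * g * P, Subgroup.mem_sup_of_normal_right.mpr ⟨_, ⟨g₀, rfl⟩,
      Units.map (Matrix.scalar (Fin n) : F →+* Matrix (Fin n) (Fin n) F).toMonoidHom c, ⟨c, rfl⟩, ?_⟩,
      by simp [mul_assoc]⟩
    refine Units.ext ?_
    rw [h, Units.val_mul]
    simp [Matrix.smul_eq_mul_diagonal]

theorem sl_not_le_subfieldSubgroup (hn : 2 ≤ n) {F₀ : Subfield F} (hF₀ : F₀ ≠ ⊤) (P : GL (Fin n) F) :
    ¬ Cfsg.Geo.specialLinear (Fin n) F ≤ Cfsg.Geo.subfieldSubgroup F₀ P := by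
  intro hle
  obtain ⟨a, ha⟩ : ∃ a, a ∉ F₀ := by
    by_contra h; push Not at h; exact hF₀ (eq_top_iff.mpr fun y _ => h y)
  let i0 : Fin n := ⟨0, by omega⟩
  let i1 : Fin n := ⟨1, by omega⟩
  have h01 : i0 ≠ i1 := by simp [i0, i1]
  let t : GL (Fin n) F := GeneralLinearGroup.mkOfDetNeZero (Matrix.transvection i0 i1 a)
    (by rw [det_transvection_of_ne i0 i1 h01]; exact one_ne_zero)
  have ht : P * t * P⁻¹ ∈ Cfsg.Geo.specialLinear (Fin n) F := by
    have htS : t ∈ Cfsg.Geo.specialLinear (Fin n) F := mem_specialLinear.mpr (det_transvection_of_ne i0 i1 h01 a)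
    rw [Cfsg.Geo.specialLinear] at htS ⊢
    exact (MonoidHom.normal_ker _).conj_mem t htS P
  obtain ⟨g₀, c, h⟩ := mem_subfieldSubgroup.mp (hle ht)
  rw [show P⁻¹ * (P * t * P⁻¹) * P = t by group] at h
  have h00 := congrFun (congrFun h i0) i0
  have h0a := congrFun (congrFun h i0) i1
  simp [t, GeneralLinearGroup.mkOfDetNeZero, Matrix.transvection, Matrix.single, h01.symm, h01] at h00 h0a
  apply ha
  have hc : (c : F) = ((g₀ i0 i0 : F₀) : F)⁻¹ := eq_inv_of_mul_eq_one_left h00.symm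
  rw [h0a, hc]
  exact F₀.mul_mem (F₀.inv_mem (g₀ i0 i0).2) (g₀ i0 i1).2

/-- A non-degenerate form which is linear in the first and `σ`-semilinear in the second variable. -/
structure IsSesq (σ : F ≃+* F) (f : (Fin n → F) → (Fin n → F) → F) : Prop where
  add_left : ∀ x y v, f (x + y) v = f x v + f y v
  smul_left : ∀ (c : F) (x v : Fin n → F), f (c • x) v = c * f x v
  add_right : ∀ v x y, f v (x + y) = f v x + f v y
  smul_right : ∀ (c : F) (v x : Fin n → F), f v (c • x) = σ c * f v x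
  left_ne : ∀ v, v ≠ 0 → ∃ x, f v x ≠ 0
  right_ne : ∀ v, v ≠ 0 → ∃ x, f x v ≠ 0

theorem isSesq_of_unitary {σ : F ≃+* F} {f : (Fin n → F) → (Fin n → F) → F}
    (h : Cfsg.Geo.IsUnitaryForm σ f) : IsSesq σ f := by
  refine ⟨h.add_left, h.smul_left, fun v x y => ?_, fun c v x => ?_,
    fun v hv => (h.nondegenerate v hv).2, fun v hv => (h.nondegenerate v hv).1⟩
  · rw [h.herm v (x + y), h.add_left, map_add, ← h.herm, ← h.herm]
  · rw [h.herm v (c • x), h.smul_left, map_mul, ← h.herm]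

theorem isSesq_of_bilinear {f : (Fin n → F) → (Fin n → F) → F} (h : Cfsg.Geo.IsBilinearForm f)
    (hne : Cfsg.Geo.IsNondegenerateForm f) : IsSesq (RingEquiv.refl F) f :=
  ⟨h.add_left, h.smul_left, h.add_right, h.smul_right, fun v hv => (hne v hv).2,
    fun v hv => (hne v hv).1⟩

/-- The linear functional `x ↦ f x w`. -/
def IsSesq.rightFun {σ : F ≃+* F} {f : (Fin n → F) → (Fin n → F) → F} (h : IsSesq σ f) (w : Fin n → F) :
    Module.Dual F (Fin n → F) where
  toFun x := f x w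
  map_add' x y := h.add_left x y w
  map_smul' c x := h.smul_left c x w

theorem sl_not_le_similarityGroup (hn : 3 ≤ n) {σ : F ≃+* F} {f : (Fin n → F) → (Fin n → F) → F}
    (h : IsSesq σ f) : ¬ Cfsg.Geo.specialLinear (Fin n) F ≤ Cfsg.Geo.similarityGroup f := by
  classical
  intro hle
  -- a transvection with centre outside the radical of the hyperplane of `w`
  obtain ⟨u, hu0⟩ : ∃ u : Fin n → F, u ≠ 0 :=
    ⟨Pi.single ⟨0, by omega⟩ 1, fun h => by simpa using congrFun h ⟨0, by omega⟩⟩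
  obtain ⟨a, ha⟩ := h.left_ne u hu0
  -- `a` pairs non-trivially with `u`; choose a hyperplane containing `u` and `a`
  obtain ⟨w, hw⟩ : ∃ w, w ∉ Submodule.span F ({u, a} : Set (Fin n → F)) := by
    by_contra hc
    push Not at hc
    have h1 := congrArg (fun W : Submodule F (Fin n → F) => Module.finrank F W)
      (eq_top_iff.mpr fun y _ => hc y : Submodule.span F ({u, a} : Set (Fin n → F)) = ⊤)
    simp only [finrank_top, Module.finrank_fin_fun] at h1
    have h2 := finrank_span_le_card (R := F) ({u, a} : Set (Fin n → F))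
    rw [h1] at h2
    have h3 : ({u, a} : Set (Fin n → F)).toFinset.card ≤ 2 := by
      rw [Set.toFinset_insert, Set.toFinset_singleton]; exact Finset.card_le_two
    omega
  obtain ⟨φ, hφw, hφ⟩ := Submodule.exists_dual_map_eq_bot_of_notMem hw inferInstance
  have hφS : ∀ x ∈ Submodule.span F ({u, a} : Set (Fin n → F)), φ x = 0 := fun x hx =>
    (Submodule.mem_bot F).mp (hφ ▸ Submodule.mem_map_of_mem hx)
  have hu : φ u = 0 := hφS u (Submodule.subset_span (Set.mem_insert u _))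
  have ha' : φ a = 0 := hφS a (Submodule.subset_span (Set.mem_insert_of_mem _ rfl))
  obtain ⟨g, hg, hgx⟩ := GeoTransvection.exists_transvection u φ hu
  obtain ⟨c, hc⟩ := mem_similarityGroup.mp (hle hg)
  have hc1 : (c : F) = 1 := by
    have := hc u a
    simp only [hgx, hu, ha', zero_smul, add_zero] at this
    exact mul_right_cancel₀ ha (by rw [← this, one_mul])
  have := hc w a
  rw [hgx w, hgx a, ha', zero_smul, add_zero, h.add_left, h.smul_left, hc1, one_mul, add_eq_left] at this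
  exact mul_ne_zero hφw ha this

theorem quadSimilarity_le_similarity {Q : (Fin n → F) → F} :
    Cfsg.Geo.quadSimilarityGroup Q ≤ Cfsg.Geo.similarityGroup (QuadraticMap.polar Q) := by
  intro g hg
  obtain ⟨c, hc⟩ := mem_quadSimilarityGroup.mp hg
  refine mem_similarityGroup.mpr ⟨c, fun u v => ?_⟩
  simp only [QuadraticMap.polar, ← mulVec_add, hc]
  ring

theorem sl_not_le_quadSimilarityGroup (hn : 3 ≤ n) {Q : (Fin n → F) → F}
    (h : Cfsg.Geo.IsNondegenerateQuadraticForm Q) :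
    ¬ Cfsg.Geo.specialLinear (Fin n) F ≤ Cfsg.Geo.quadSimilarityGroup Q := fun hle =>
  sl_not_le_similarityGroup hn (isSesq_of_bilinear h.polar_bilinear h.nondegenerate)
    (hle.trans quadSimilarity_le_similarity)

end CfsgLib.GeoPrime
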